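import Cfsg.Agent.H591.KGV.Gallagher
import Cfsg.Agent.H395.Jordan
import Cfsg.Agent.S4218
import Cfsg.Agent.PLocal.HallHigmanPrime

/-!
# `k(X) ≤ |P|` for `p`-solvable groups with `O_{p'}(X) = 1`, from the `k(GV)` theorem
-/

set_option autoImplicit false
set_option linter.unusedSectionVars false

open Cfsg

namespace Cfsg.Agent.H591.KGV

universe u

/-- The `k(GV)` theorem (the statement of S4954). -/
def KGVStatement : Prop :=
  ∀ (X : Type u) [Group X] [Finite X] (p : ℕ) [Fact p.Prime] (V : Subgroup X) [V.Normal],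
    (∀ v ∈ V, v ^ p = 1) → ¬ p ∣ V.index → Subgroup.centralizer (V : Set X) = V →
    Nat.card (ConjClasses X) ≤ Nat.card V

theorem card_eq_pow {X : Type*} [Group X] [Finite X] {p : ℕ} [hp : Fact p.Prime]
    (hX : IsPGroup p X) : Nat.card X = p ^ (Nat.card X).factorization p := by
  obtain ⟨n, hn⟩ := IsPGroup.iff_card.1 hX
  rw [hn, hp.out.factorization_pow, Finsupp.single_eq_same]

/-- A `p`-subgroup of a normal `p'`-subgroup is trivial. -/
theorem eq_one_of_mem {X : Type*} [Group X] [Finite X] {p : ℕ} [hp : Fact p.Prime] {A B : Subgroup X}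
    (hA : IsPGroup p A) (hB : (Nat.card B).Coprime p) {x : X} (hxA : x ∈ A) (hxB : x ∈ B) : x = 1 := by
  have h1 : IsPGroup p ↥(A ⊓ B) := hA.to_le inf_le_left
  obtain ⟨n, hn⟩ := IsPGroup.iff_card.1 h1
  have h2 : Nat.card ↥(A ⊓ B) ∣ Nat.card B := Subgroup.card_dvd_of_le inf_le_right
  have h3 : (Nat.card ↥(A ⊓ B)).Coprime p := Nat.Coprime.coprime_dvd_left h2 hB
  have h4 : Nat.card ↥(A ⊓ B) = 1 := by
    rcases Nat.eq_zero_or_pos n with h | h
    · rw [hn, h, pow_zero]
    · exfalso
      rw [hn] at h3
      have := Nat.Coprime.eq_one_of_dvd (Nat.Coprime.symm h3) (dvd_pow_self p h.ne')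
      exact hp.out.one_lt.ne' this
  have h5 := Subgroup.eq_bot_of_card_eq _ h4
  have h6 : x ∈ A ⊓ B := ⟨hxA, hxB⟩
  rw [h5] at h6
  exact Subgroup.mem_bot.1 h6

/-- `O_{p'}(X/Φ(O_p(X))) = 1`. -/
theorem pPrimeCore_quotient_frattini {X : Type*} [Group X] [Finite X] (p : ℕ) [hp : Fact p.Prime]
    (hsolv : IsPSolvable p X) (hcore : pPrimeCore p X = ⊥)
    (N : Subgroup X) [N.Normal] (hN : N = (frattini (pCore p X)).map (pCore p X).subtype) :
    pPrimeCore p (X ⧸ N) = ⊥ := by
  have hC := Lib.PSolvable.centralizer_pCore_le_of_pSolvable p hsolv hcore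
  have hUn : (pCore p X).Normal := Lib.Cores.pCore_normal p
  have hU : IsPGroup p (pCore p X) := Lib.Cores.pCore_isPGroup p
  have hNU : N ≤ pCore p X := by
    rw [hN]; exact Subgroup.map_subtype_le _
  have hKn : (pPrimeCore p (X ⧸ N)).Normal := Lib.Cores.pPrimeCore_normal p
  have hK : (Nat.card (pPrimeCore p (X ⧸ N))).Coprime p := Lib.Cores.pPrimeCore_coprime p
  have hUm : IsPGroup p ((pCore p X).map (QuotientGroup.mk' N)) := hU.map _
  have hUmn : ((pCore p X).map (QuotientGroup.mk' N)).Normal :=
    hUn.map _ (QuotientGroup.mk'_surjective N)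
  rw [eq_bot_iff]
  intro k hk
  obtain ⟨x, rfl⟩ := QuotientGroup.mk'_surjective N k
  have hxU : x ∈ pCore p X := by
    rw [← S4218.core hC]
    intro y
    have h1 : (x * y * x⁻¹ * (y : X)⁻¹) ∈ N := by
      rw [← QuotientGroup.eq_one_iff]
      have h2 : ((x * y * x⁻¹ * (y : X)⁻¹ : X) : X ⧸ N) =
          QuotientGroup.mk' N x * QuotientGroup.mk' N y * (QuotientGroup.mk' N x)⁻¹ *
            (QuotientGroup.mk' N y)⁻¹ := rfl
      rw [h2]
      apply eq_one_of_mem hUm hK
      · have hy : QuotientGroup.mk' N (y : X) ∈ (pCore p X).map (QuotientGroup.mk' N) :=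
          ⟨y, y.2, rfl⟩
        exact mul_mem (hUmn.conj_mem _ hy _) (inv_mem hy)
      · rw [mul_assoc, mul_assoc]
        refine mul_mem hk ?_
        have := hKn.conj_mem _ (inv_mem hk) (QuotientGroup.mk' N (y : X))
        rwa [mul_assoc] at this
    rw [hN] at h1
    obtain ⟨z, hz, hz'⟩ := h1
    exact ⟨z, hz, hz'.symm⟩
  exact Subgroup.mem_bot.2 (eq_one_of_mem hUm hK ⟨x, hxU, rfl⟩ hk)

/-- An elementary abelian group: the `p`-group with trivial Frattini subgroup. -/
theorem elementary_of_frattini {U : Type*} [Group U] [Finite U] {p : ℕ} [hp : Fact p.Prime]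
    (hU : IsPGroup p U) (h : frattini U = ⊥) :
    (∀ u : U, u ^ p = 1) ∧ ∀ u v : U, u * v = v * u := by
  constructor
  · intro u
    have h1 := S0014.pow_mem_frattini hU u
    rwa [h, Subgroup.mem_bot] at h1
  · intro u v
    have h1 := S0014.commutator_mem_frattini hU u v
    rw [h, Subgroup.mem_bot] at h1
    have h2 : u * v * u⁻¹ * v⁻¹ = 1 := h1
    rw [mul_inv_eq_one, mul_inv_eq_iff_eq_mul] at h2
    exact h2

/-- Coprime fixed point argument: `C K = ⊤` with `K` normal of order prime to `p`; then a
conjugate of `C` by an element of `K` contains a given `p`-subgroup. -/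
theorem exists_conj_le {X : Type*} [Group X] [Finite X] {p : ℕ} [hp : Fact p.Prime]
    (K : Subgroup X) [K.Normal] (hK : (Nat.card K).Coprime p) (C : Subgroup X) (hCK : C ⊔ K = ⊤)
    (Q : Subgroup X) (hQ : IsPGroup p Q) : ∃ k ∈ K, ∀ q ∈ Q, k⁻¹ * q * k ∈ C := by
  have h1 : C.index ∣ Nat.card K := by
    have e1 : K.relIndex C = K.index := by
      have := Subgroup.relIndex_sup_right (H := C) (K := K)
      rw [hCK, Subgroup.relIndex_top_right] at this
      exact this.symm
    have e2 : K.relIndex C * Nat.card ↥(K ⊓ C) = Nat.card C := by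
      rw [← Subgroup.inf_relIndex_right, mul_comm]
      have := Subgroup.relIndex_mul_relIndex (⊥ : Subgroup X) (K ⊓ C) C bot_le inf_le_right
      rwa [Subgroup.relIndex_bot_left, Subgroup.relIndex_bot_left] at this
    have e3 := Subgroup.card_mul_index C
    have e4 := Subgroup.card_mul_index K
    have e5 : K.index * (Nat.card ↥(K ⊓ C) * C.index) = K.index * Nat.card K := by
      rw [← mul_assoc, ← e1, e2, e3, mul_comm, e1, e4]
    have e6 := Nat.eq_of_mul_eq_mul_left (Nat.pos_of_ne_zero K.index_ne_zero_of_finite) e5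
    exact ⟨_, by rw [← e6, mul_comm]⟩
  have h2 : ¬ p ∣ Nat.card (X ⧸ C) := by
    intro h
    have h3 : p ∣ Nat.card K := h.trans h1
    have := Nat.Coprime.eq_one_of_dvd hK.symm h3
    exact hp.out.one_lt.ne' this
  have := hQ.nonempty_fixed_point_of_prime_not_dvd_card (X ⧸ C) h2
  obtain ⟨z, hz⟩ := this
  obtain ⟨g, rfl⟩ := QuotientGroup.mk_surjective z
  have h3 : ∀ q ∈ Q, g⁻¹ * q * g ∈ C := by
    intro q hq
    have h4 : ((q * g : X) : X ⧸ C) = g := hz ⟨q, hq⟩
    rw [eq_comm, QuotientGroup.eq] at h4
    rwa [← mul_assoc] at h4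
  -- write `g = k c`
  have h5 : g⁻¹ ∈ C ⊔ K := hCK ▸ Subgroup.mem_top _
  obtain ⟨c, hc, k, hk, hck⟩ := Subgroup.mem_sup_of_normal_right.1 h5
  refine ⟨k⁻¹, inv_mem hk, fun q hq => ?_⟩
  have h6 := h3 q hq
  have h7 : g = k⁻¹ * c⁻¹ := by rw [← inv_inv g, ← hck, mul_inv_rev]
  rw [← hck, h7] at h6
  have h8 : k⁻¹⁻¹ * q * k⁻¹ = c⁻¹ * (c * k * q * (k⁻¹ * c⁻¹)) * c := by group
  rw [h8]
  exact mul_mem (mul_mem (inv_mem hc) h6) hc

/-- **The inductive step**: `k(X) ≤ |X|_p`, and equality forces abelian Sylow `p`-subgroups. -/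
theorem main (hkgv : KGVStatement.{u}) (p : ℕ) [hp : Fact p.Prime] (n : ℕ) :
    ∀ (X : Type u) [Group X] [Finite X], Nat.card X ≤ n → IsPSolvable p X → pPrimeCore p X = ⊥ →
      Nat.card (ConjClasses X) ≤ p ^ (Nat.card X).factorization p ∧
      (Nat.card (ConjClasses X) = p ^ (Nat.card X).factorization p →
        ∀ P : Subgroup X, IsPGroup p P → ∀ a ∈ P, ∀ b ∈ P, a * b = b * a) := by
  induction n with
  | zero =>
    intro X _ _ h
    exact absurd h (Nat.not_le.2 Nat.card_pos)
  | succ n ih =>
    intro X _ _ hcard hsolv hcore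
    have hC := Lib.PSolvable.centralizer_pCore_le_of_pSolvable p hsolv hcore
    have hUn : (pCore p X).Normal := Lib.Cores.pCore_normal p
    have hUc : (pCore p X).Characteristic := Lib.Cores.pCore_characteristic p
    have hU : IsPGroup p (pCore p X) := Lib.Cores.pCore_isPGroup p
    have hquot : ∀ (N : Subgroup X) [N.Normal], N ≠ ⊥ → Nat.card (X ⧸ N) ≤ n := by
      intro N _ hN
      have h1 := Subgroup.card_eq_card_quotient_mul_card_subgroup N
      have h2 : 1 < Nat.card N := (Subgroup.one_lt_card_iff_ne_bot N).2 hN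
      have h3 : 0 < Nat.card (X ⧸ N) := Nat.card_pos
      have h4 : Nat.card (X ⧸ N) < Nat.card X := by
        rw [h1]; exact lt_mul_of_one_lt_right h3 h2
      omega
    have hfac : ∀ (N : Subgroup X) [N.Normal], (Nat.card X).factorization p =
        (Nat.card N).factorization p + (Nat.card (X ⧸ N)).factorization p := by
      intro N _
      rw [Subgroup.card_eq_card_quotient_mul_card_subgroup N,
        Nat.factorization_mul Nat.card_pos.ne' Nat.card_pos.ne', Finsupp.add_apply, add_comm]
    by_cases hfr : frattini (pCore p X) = ⊥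
    swap
    · -- the Frattini subgroup of `O_p(X)` is not trivial
      obtain ⟨N, hNdef⟩ : ∃ N : Subgroup X, N = (frattini (pCore p X)).map (pCore p X).subtype :=
        ⟨_, rfl⟩
      have hNn : N.Normal := by
        rw [hNdef]
        have : ((frattini (pCore p X)).map (pCore p X).subtype).Normal := inferInstance
        exact this
      have hNbot : N ≠ ⊥ := by
        intro h
        apply hfr
        rw [h, eq_comm, Subgroup.map_eq_bot_iff, Subgroup.ker_subtype, le_bot_iff] at hNdef
        exact hNdef
      have hNU : N ≤ pCore p X := by rw [hNdef]; exact Subgroup.map_subtype_le _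
      have hNp : IsPGroup p N := hU.to_le hNU
      have hcoreN := pPrimeCore_quotient_frattini p hsolv hcore N hNdef
      have hsolvN : IsPSolvable p (X ⧸ N) := PLocal.PSolvable.isPSolvable_quotient hsolv N
      obtain ⟨ih1, ih2⟩ := ih (X ⧸ N) (hquot N hNbot) hsolvN hcoreN
      have hkN : Nat.card (ConjClasses N) ≤ p ^ (Nat.card N).factorization p := by
        rw [← card_eq_pow hNp]
        exact H540.ClassNum.card_conjClasses_le_card
      have hle := H540.ClassNum.le_normal_mul_quotient N
      rw [hfac N, pow_add]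
      refine ⟨hle.trans (Nat.mul_le_mul hkN ih1), ?_⟩
      intro heq P hP a ha b hb
      -- equality everywhere
      have hpos : 0 < Nat.card (ConjClasses N) := H540.ClassNum.card_conjClasses_pos
      have hpos' : 0 < Nat.card (ConjClasses (X ⧸ N)) := H540.ClassNum.card_conjClasses_pos
      have h1 : Nat.card (ConjClasses X) =
          Nat.card (ConjClasses N) * Nat.card (ConjClasses (X ⧸ N)) :=
        le_antisymm hle (by rw [heq]; exact Nat.mul_le_mul hkN ih1)
      have h2 : Nat.card (ConjClasses (X ⧸ N)) = p ^ (Nat.card (X ⧸ N)).factorization p := by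
        refine le_antisymm ih1 ?_
        rw [heq] at hle
        have h3 : Nat.card (ConjClasses N) * Nat.card (ConjClasses (X ⧸ N)) ≤
            p ^ (Nat.card N).factorization p * Nat.card (ConjClasses (X ⧸ N)) :=
          Nat.mul_le_mul_right _ hkN
        exact Nat.le_of_mul_le_mul_left (hle.trans h3) (pow_pos hp.out.pos _)
      have hab := ih2 h2
      -- a Sylow subgroup containing `P`
      obtain ⟨S, hPS⟩ := hP.exists_le_sylow
      have hSab : ∀ x ∈ (S : Subgroup X), ∀ y ∈ (S : Subgroup X),
          QuotientGroup.mk' N x * QuotientGroup.mk' N y =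
            QuotientGroup.mk' N y * QuotientGroup.mk' N x := by
        intro x hx y hy
        exact hab ((S : Subgroup X).map (QuotientGroup.mk' N)) (S.isPGroup'.map _) _ ⟨x, hx, rfl⟩ _
          ⟨y, hy, rfl⟩
      have hUS : pCore p X ≤ (S : Subgroup X) := Lib.Cores.pCore_le_sylow S
      have hcomap := Lib.Cores.comap_mk_pCore p hNp
      have hSU : (S : Subgroup X) ≤ pCore p X := by
        intro x hx
        rw [← hcomap, Subgroup.mem_comap]
        apply Lib.PSolvable.centralizer_pCore_le_of_pSolvable p hsolvN hcoreN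
        rw [Subgroup.mem_centralizer_iff]
        intro z hz
        obtain ⟨y, rfl⟩ := QuotientGroup.mk'_surjective N z
        have hy : y ∈ pCore p X := by rw [← hcomap]; exact hz
        exact hSab y (hUS hy) x hx
      have hcent : ∀ x : pCore p X, Subgroup.centralizer ({x} : Set (pCore p X)) = ⊤ := by
        intro x
        apply frattini_nongenerating
        rw [eq_top_iff]
        intro y _
        have h3 := centralizer_le_map_of_eq N h1 (x : X)
        have h4 : QuotientGroup.mk' N (y : X) ∈
            Subgroup.centralizer {(QuotientGroup.mk (x : X) : X ⧸ N)} := by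
          rw [Subgroup.mem_centralizer_singleton_iff]
          exact hSab y (hUS y.2) x (hUS x.2)
        obtain ⟨c, hc, hcy⟩ := h3 h4
        have h5 : c⁻¹ * y ∈ N := by
          rw [← QuotientGroup.eq]
          exact hcy
        have h6 : c ∈ pCore p X := by
          have h7 : c = y * (c⁻¹ * y)⁻¹ := by group
          rw [h7]
          exact mul_mem y.2 (inv_mem (hNU h5))
        have h8 : y = ⟨c, h6⟩ * (⟨c, h6⟩⁻¹ * y) := by group
        rw [h8]
        refine mul_mem (Subgroup.mem_sup_left ?_) (Subgroup.mem_sup_right ?_)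
        · rw [Subgroup.mem_centralizer_singleton_iff]
          rw [SetLike.mem_coe, Subgroup.mem_centralizer_singleton_iff] at hc
          exact Subtype.ext hc
        · rw [hNdef] at h5
          obtain ⟨w, hw, hw'⟩ := h5
          have h9 : w = (⟨c, h6⟩ : pCore p X)⁻¹ * y := Subtype.ext hw'
          rw [← h9]
          exact hw
      have ha' := hSU (hPS ha)
      have hb' := hSU (hPS hb)
      have h3 : (⟨a, ha'⟩ : pCore p X) ∈ Subgroup.centralizer {(⟨b, hb'⟩ : pCore p X)} := by
        rw [hcent]; exact Subgroup.mem_top _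
      rw [Subgroup.mem_centralizer_singleton_iff] at h3
      exact congrArg Subtype.val h3
    · -- `V = O_p(X)` is elementary abelian
      obtain ⟨hexp, hcomm⟩ := elementary_of_frattini hU hfr
      have hVV : Subgroup.centralizer (pCore p X : Set X) = pCore p X := by
        refine le_antisymm hC ?_
        intro x hx
        rw [Subgroup.mem_centralizer_iff]
        intro y hy
        exact congrArg Subtype.val (hcomm ⟨y, hy⟩ ⟨x, hx⟩)
      by_cases hV1 : pCore p X = ⊥
      · -- `X = 1`
        have h1 : (⊤ : Subgroup X) = ⊥ := by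
          rw [← hV1, ← hVV, hV1, eq_comm, eq_top_iff]
          intro x _
          rw [Subgroup.mem_centralizer_iff]
          intro y hy
          rw [Subgroup.mem_bot.1 hy, one_mul, mul_one]
        have hs : Subsingleton X := by
          constructor
          intro a b
          have ha : a ∈ (⊤ : Subgroup X) := Subgroup.mem_top _
          have hb : b ∈ (⊤ : Subgroup X) := Subgroup.mem_top _
          rw [h1, Subgroup.mem_bot] at ha hb
          rw [ha, hb]
        refine ⟨?_, fun _ _ _ a _ b _ => Subsingleton.elim _ _⟩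
        refine H540.ClassNum.card_conjClasses_le_card.trans ?_
        rw [Nat.card_of_subsingleton (1 : X)]
        exact Nat.one_le_pow _ _ hp.out.pos
      obtain ⟨V, hVdef⟩ : ∃ V : Subgroup X, V = pCore p X := ⟨_, rfl⟩
      rw [← hVdef] at hUn hU hexp hcomm hVV hV1
      obtain ⟨K, hKdef⟩ : ∃ K : Subgroup (X ⧸ V), K = pPrimeCore p (X ⧸ V) := ⟨_, rfl⟩
      have hKn : K.Normal := hKdef ▸ Lib.Cores.pPrimeCore_normal p
      have hK : (Nat.card K).Coprime p := hKdef ▸ Lib.Cores.pPrimeCore_coprime p
      obtain ⟨N, hNdef⟩ : ∃ N : Subgroup X, N = K.comap (QuotientGroup.mk' V) := ⟨_, rfl⟩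
      have hNn : N.Normal := hNdef ▸ hKn.comap _
      have hVN : V ≤ N := by
        rw [hNdef]
        intro x hx
        rw [Subgroup.mem_comap]
        have : QuotientGroup.mk' V x = 1 := (QuotientGroup.eq_one_iff x).2 hx
        rw [this]; exact one_mem _
      have hNbot : N ≠ ⊥ := fun h => hV1 (le_bot_iff.1 (h ▸ hVN))
      have hNmap : N.map (QuotientGroup.mk' V) = K := by
        rw [hNdef, Subgroup.map_comap_eq_self_of_surjective (QuotientGroup.mk'_surjective V)]
      have hNcard : Nat.card N = Nat.card V * Nat.card K := by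
        have h1 := Subgroup.relIndex_ker (K := N) (QuotientGroup.mk' V)
        rw [QuotientGroup.ker_mk', hNmap] at h1
        rw [← h1]
        have h2 := Subgroup.relIndex_mul_relIndex (⊥ : Subgroup X) V N bot_le hVN
        rw [Subgroup.relIndex_bot_left, Subgroup.relIndex_bot_left] at h2
        exact h2.symm
      have hcoreN : pPrimeCore p (X ⧸ N) = ⊥ := by
        have h1 : ∀ K' : Subgroup (X ⧸ V), ∀ _ : K'.Normal, K' = pPrimeCore p (X ⧸ V) →
            pPrimeCore p ((X ⧸ V) ⧸ K') = ⊥ := by
          rintro K' hK' rfl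
          exact Lib.Cores.pPrimeCore_quotient_pPrimeCore p
        have hn : (N.map (QuotientGroup.mk' V)).Normal := hNmap ▸ hKn
        have h2 := h1 (N.map (QuotientGroup.mk' V)) hn (hNmap.trans hKdef)
        have h3 := Lib.Cores.map_equiv_pPrimeCore
          (QuotientGroup.quotientQuotientEquivQuotient V N hVN) p
        rw [← h3, h2, Subgroup.map_bot]
      have hsolvN : IsPSolvable p (X ⧸ N) := PLocal.PSolvable.isPSolvable_quotient hsolv N
      obtain ⟨ih1, -⟩ := ih (X ⧸ N) (hquot N hNbot) hsolvN hcoreN
      have hNfac : (Nat.card N).factorization p = (Nat.card V).factorization p := by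
        rw [hNcard, Nat.factorization_mul Nat.card_pos.ne' Nat.card_pos.ne', Finsupp.add_apply,
          Nat.factorization_eq_zero_of_not_dvd (n := Nat.card K), add_zero]
        intro h
        exact hp.out.one_lt.ne' (Nat.Coprime.eq_one_of_dvd hK.symm h)
      have hkN : Nat.card (ConjClasses N) ≤ p ^ (Nat.card N).factorization p := by
        rw [hNfac, ← card_eq_pow hU]
        have h1 : Nat.card (V.subgroupOf N) = Nat.card V :=
          Nat.card_congr (Subgroup.subgroupOfEquivOfLe hVN).toEquiv
        rw [← h1]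
        have hVn' : (V.subgroupOf N).Normal := hUn.comap N.subtype
        refine hkgv N p (V.subgroupOf N) ?_ ?_ ?_
        · intro v hv
          have h2 := congrArg Subtype.val (hexp ⟨v, hv⟩)
          exact Subtype.ext h2
        · intro h
          have h2 : (V.subgroupOf N).index = Nat.card K := by
            have h3 := Subgroup.card_mul_index (V.subgroupOf N)
            rw [h1, hNcard] at h3
            exact Nat.eq_of_mul_eq_mul_left Nat.card_pos h3
          rw [h2] at h
          exact hp.out.one_lt.ne' (Nat.Coprime.eq_one_of_dvd hK.symm h)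
        · ext x
          rw [Subgroup.mem_subgroupOf, Subgroup.mem_centralizer_iff]
          constructor
          · intro h
            rw [← hVV, Subgroup.mem_centralizer_iff]
            intro y hy
            exact congrArg Subtype.val (h ⟨y, hVN hy⟩ (Subgroup.mem_subgroupOf.2 hy))
          · intro hx y hy
            have h2 := congrArg Subtype.val (hcomm ⟨y, Subgroup.mem_subgroupOf.1 hy⟩ ⟨x, hx⟩)
            exact Subtype.ext h2
      have hle := H540.ClassNum.le_normal_mul_quotient N
      rw [hfac N, pow_add]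
      refine ⟨hle.trans (Nat.mul_le_mul hkN ih1), ?_⟩
      intro heq P hP a ha b hb
      have h1 : Nat.card (ConjClasses X) =
          Nat.card (ConjClasses N) * Nat.card (ConjClasses (X ⧸ N)) :=
        le_antisymm hle (by rw [heq]; exact Nat.mul_le_mul hkN ih1)
      -- every element of `K` is centralized by a conjugate of `P`
      obtain ⟨Q, hQdef⟩ : ∃ Q : Subgroup (X ⧸ V), Q = P.map (QuotientGroup.mk' V) := ⟨_, rfl⟩
      have hQ : IsPGroup p Q := hQdef ▸ hP.map _
      have h2 : ∀ k ∈ K, ∃ g ∈ K, ∀ q ∈ Q, q * (g * k * g⁻¹) = (g * k * g⁻¹) * q := by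
        intro k hk
        obtain ⟨x, rfl⟩ := QuotientGroup.mk'_surjective V k
        have hxN : x ∈ N := by rw [hNdef]; exact hk
        have h3 := centralizer_le_map_of_eq N h1 x
        have h4 : Subgroup.centralizer {QuotientGroup.mk' V x} ⊔ K = ⊤ := by
          rw [eq_top_iff]
          intro y _
          obtain ⟨y, rfl⟩ := QuotientGroup.mk'_surjective V y
          have h5 : QuotientGroup.mk' N y ∈
              Subgroup.centralizer {(QuotientGroup.mk x : X ⧸ N)} := by
            rw [Subgroup.mem_centralizer_singleton_iff]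
            have h6 : (QuotientGroup.mk x : X ⧸ N) = 1 := (QuotientGroup.eq_one_iff x).2 hxN
            rw [h6, mul_one, one_mul]
          obtain ⟨c, hc, hcy⟩ := h3 h5
          have h6 : c⁻¹ * y ∈ N := by
            rw [← QuotientGroup.eq]
            exact hcy
          have h7 : y = c * (c⁻¹ * y) := by group
          rw [h7, map_mul]
          refine mul_mem (Subgroup.mem_sup_left ?_) (Subgroup.mem_sup_right ?_)
          · rw [Subgroup.mem_centralizer_singleton_iff]
            rw [SetLike.mem_coe, Subgroup.mem_centralizer_singleton_iff] at hc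
            rw [← map_mul, ← map_mul, hc]
          · rw [hNdef] at h6
            exact h6
        obtain ⟨g, hg, hgq⟩ := exists_conj_le K hK _ h4 Q hQ
        refine ⟨g, hg, fun q hq => ?_⟩
        have h5 := hgq q hq
        rw [Subgroup.mem_centralizer_singleton_iff] at h5
        have h6 : q * (g * QuotientGroup.mk' V x * g⁻¹) =
            g * (g⁻¹ * q * g * QuotientGroup.mk' V x) * g⁻¹ := by group
        rw [h6, h5]
        group
      -- hence `K` centralizes `Q`
      have h3 : ∀ k ∈ K, ∀ q ∈ Q, q * k = k * q := by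
        let H : Subgroup K := (Subgroup.centralizer (Q : Set (X ⧸ V))).subgroupOf K
        have hH : H = ⊤ := by
          by_contra hne
          obtain ⟨x, hx⟩ := H395.Jordan.exists_not_conj_mem hne
          obtain ⟨g, hg, hgq⟩ := h2 x x.2
          apply hx ⟨g, hg⟩⁻¹
          show _ ∈ Subgroup.subgroupOf _ K
          rw [Subgroup.mem_subgroupOf, Subgroup.mem_centralizer_iff]
          intro q hq
          have h4 := hgq q hq
          simpa using h4
        intro k hk q hq
        have h4 : (⟨k, hk⟩ : K) ∈ H := hH ▸ Subgroup.mem_top _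
        rw [Subgroup.mem_subgroupOf, Subgroup.mem_centralizer_iff] at h4
        exact h4 q hq
      have h4 : Q ≤ K := by
        intro q hq
        have h5 : ∀ V' : Subgroup X, ∀ _ : V'.Normal, V' = pCore p X → pCore p (X ⧸ V') = ⊥ := by
          rintro V' hV' rfl
          exact Lib.Cores.pCore_quotient_pCore p
        have h6 := PLocal.HallHigmanPrime.centralizer_pPrimeCore_le_of_pSolvable p
          (PLocal.PSolvable.isPSolvable_quotient hsolv V) (h5 V hUn hVdef)
        rw [← hKdef] at h6
        apply h6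
        rw [Subgroup.mem_centralizer_iff]
        intro k hk
        exact (h3 k hk q hq).symm
      have h5 : P ≤ V := by
        intro x hx
        have h6 : QuotientGroup.mk' V x ∈ Q := by rw [hQdef]; exact ⟨x, hx, rfl⟩
        have h7 := eq_one_of_mem hQ hK h6 (h4 h6)
        exact (QuotientGroup.eq_one_iff x).1 h7
      exact congrArg Subtype.val (hcomm ⟨a, h5 ha⟩ ⟨b, h5 hb⟩)

/-- The statement of S4961. -/
theorem s4961 (hkgv : KGVStatement.{u}) {X : Type u} [Group X] [Finite X] (p : ℕ) [Fact p.Prime]
    (hsolv : IsPSolvable p X) (hcore : pPrimeCore p X = ⊥) (P : Sylow p X) :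
    Nat.card (ConjClasses X) ≤ Nat.card P ∧
      ((∃ a ∈ P, ∃ b ∈ P, a * b ≠ b * a) → Nat.card (ConjClasses X) < Nat.card P) := by
  obtain ⟨h1, h2⟩ := main hkgv p (Nat.card X) X le_rfl hsolv hcore
  have h3 : Nat.card P = p ^ (Nat.card X).factorization p := P.card_eq_multiplicity
  rw [h3]
  refine ⟨h1, ?_⟩
  rintro ⟨a, ha, b, hb, hab⟩
  refine lt_of_le_of_ne h1 fun heq => hab ?_
  exact h2 heq (P : Subgroup X) P.isPGroup' a ha b hb

end Cfsg.Agent.H591.KGV
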