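import Cfsg.Agent.H448.KBlock
import Cfsg.Agent.H591.KGV.Psolv

/-!
# `k(B) ≤ |D|` for `p`-solvable groups, from the `k(GV)` theorem
-/

set_option autoImplicit false
set_option linter.unusedSectionVars false

open Cfsg

namespace Cfsg.Agent.H591.KGV

open Cfsg.Agent Cfsg.Agent.Characters.Core Cfsg.Agent.OddOrderCharacters.IndRes

universe u

/-- **Fong reduction**: for a block `B` with defect group `P` of the `p`-solvable group `G` there is a
`p`-solvable group `X` with `O_{p'}(X) = 1` and Sylow `p`-subgroup isomorphic to `P` with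
`k(B) ≤ k(X)`. -/
theorem reduction (p : ℕ) [Fact p.Prime] (M : Ideal AlgInt) (hM : IsPModular p M) (n : ℕ) :
    ∀ (G : Type u) [Group G] [Finite G], Nat.card G ≤ n → IsPSolvable p G →
      ∀ (B : Set (IrrCharacter G)), IsPBlock M B → ∀ (D : Subgroup G), IsDefectGroup p M B D →
      ∃ (X : Type u) (_ : Group X) (_ : Finite X) (Q : Sylow p X),
        IsPSolvable p X ∧ pPrimeCore p X = ⊥ ∧
        Nonempty (D ≃* Q) ∧
        Nat.card B ≤ Nat.card (ConjClasses X) := by
  classical
  have hp : p.Prime := Fact.out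
  have hprime : M.IsPrime := Blocks.Local.isPrime_of_isPModular hM
  induction n with
  | zero =>
    intro G _ _ h
    exact absurd h (Nat.not_le.2 Nat.card_pos)
  | succ n ih =>
    intro G _ _ hcard hsolv B hB P hP
    have := Fintype.ofFinite G
    obtain ⟨χ, hχ⟩ : B.Nonempty := Blocks.Basic.isPBlock_nonempty hB
    obtain ⟨N, hNdef⟩ : ∃ N : Subgroup G, N = pPrimeCore p G := ⟨_, rfl⟩
    have hN : N.Normal := hNdef ▸ Lib.Cores.pPrimeCore_normal p
    have hNp : ¬ p ∣ Nat.card N := by
      rw [hNdef]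
      exact hp.coprime_iff_not_dvd.1 (Lib.Cores.pPrimeCore_coprime (G := G) p).symm
    have := Fintype.ofFinite N
    obtain ⟨θ, hθ⟩ := Blocks.Fong.exists_constituent N χ
    by_cases hinv : ∀ (g : G) (n : N),
        (θ : N → ℂ) ⟨g * n * g⁻¹, hN.conj_mem n n.2 g⟩ = (θ : N → ℂ) n
    · -- the invariant case
      obtain ⟨B₀, hB₀, hmem, hsyl, hdef⟩ :=
        S4492.result p M hM hsolv N hNdef θ hinv
      have hχ₀ : χ ∈ B₀ := (hmem χ).2 hθ
      have hBB : B = B₀ := Blocks.Basic.isPBlock_eq_of_mem hB hB₀ hχ hχ₀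
      subst hBB
      obtain ⟨Q, rfl⟩ := hdef P hP
      -- the Sylow subgroup of the quotient
      have hinj : ∀ x ∈ (Q : Subgroup G), QuotientGroup.mk' N x = 1 → x = 1 := by
        intro x hx h
        have h1 : x ∈ N := (QuotientGroup.eq_one_iff x).1 h
        exact eq_one_of_mem Q.isPGroup' (hp.coprime_iff_not_dvd.2 hNp).symm hx h1
      have hcardX : (Nat.card G).factorization p = (Nat.card (G ⧸ N)).factorization p := by
        rw [Subgroup.card_eq_card_quotient_mul_card_subgroup N,
          Nat.factorization_mul Nat.card_pos.ne' Nat.card_pos.ne', Finsupp.add_apply,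
          Nat.factorization_eq_zero_of_not_dvd hNp, add_zero]
      let f : Q →* G ⧸ N := (QuotientGroup.mk' N).comp (Q : Subgroup G).subtype
      have hf : Function.Injective f := by
        rw [injective_iff_map_eq_one]
        intro x hx
        exact Subtype.ext (hinj x x.2 hx)
      have e : Q ≃* f.range := MonoidHom.ofInjective hf
      have hcr : Nat.card f.range = p ^ (Nat.card (G ⧸ N)).factorization p := by
        rw [← Nat.card_congr e.toEquiv, ← hcardX]
        exact Q.card_eq_multiplicity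
      refine ⟨G ⧸ N, inferInstance, inferInstance, Sylow.ofCard f.range hcr,
        PLocal.PSolvable.isPSolvable_quotient hsolv N, ?_, ?_, ?_⟩
      · subst hNdef
        exact Lib.Cores.pPrimeCore_quotient_pPrimeCore p
      · exact ⟨e⟩
      · have h1 := H669.OverCount.card_over_le N θ.2 hinv
        refine le_trans (le_of_eq ?_) h1
        exact Nat.card_congr (Equiv.subtypeEquivRight hmem)
    · -- Clifford
      let b : Set (IrrCharacter N) := blockOf M (θ : N → ℂ)
      have hb : IsPBlock M b := Blocks.Basic.isPBlock_blockOf θ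
      have hbs : ∀ θ' : IrrCharacter N, θ' ∈ b ↔ θ' = θ := by
        intro θ'
        constructor
        · intro h
          exact Subtype.ext (H592.Height.eq_of_sameBlock hM hNp θ.2 θ'.2 h).symm
        · rintro rfl
          exact Blocks.Basic.mem_blockOf_self _
      set T : Subgroup G := OddOrderCharacters.PF9.CliffGen.inertia N (θ : N → ℂ) with hTdef
      have hT' : ∀ g : G, g ∈ T ↔
          ∀ h : N, (θ : N → ℂ) ⟨g * h * g⁻¹, hN.conj_mem h h.2 g⟩ = (θ : N → ℂ) h :=
        fun g => OddOrderCharacters.PF9.CliffGen.mem_inertia'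
      have hst : H591.Reynolds.IsStab b T := by
        intro g
        rw [hT']
        constructor
        · intro h θ₁ hθ₁ θ' hθ'
          rw [hbs] at hθ₁ ⊢
          subst hθ₁
          apply Subtype.ext
          funext n
          rw [hθ' n, h n]
        · intro h
          have h1 := h θ ((hbs θ).2 rfl) (Blocks.Covering.conjIrr N g θ) (fun n => by
            rw [Blocks.Covering.conjIrr_apply, H591.Reynolds.conjNormal_eq])
          rw [hbs] at h1
          intro n
          have h2 : (Blocks.Covering.conjIrr N g θ : N → ℂ) n = (θ : N → ℂ) n := by rw [h1]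
          rw [Blocks.Covering.conjIrr_apply, H591.Reynolds.conjNormal_eq] at h2
          exact h2
      have hNT : N ≤ T :=
        OddOrderCharacters.PF9.CliffGen.le_inertia (isIrr_isClassFunction θ.2)
      have hTtop : T ≠ ⊤ := by
        intro h
        apply hinv
        intro g
        exact (hT' g).1 (h ▸ Subgroup.mem_top g)
      have hTcard : Nat.card T ≤ n := by
        have h1 : Nat.card T < Nat.card G := by
          refine lt_of_le_of_ne (Nat.le_of_dvd Nat.card_pos (Subgroup.card_subgroup_dvd_card T)) ?_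
          intro h
          exact hTtop (Subgroup.eq_top_of_card_eq T h)
        omega
      have := Fintype.ofFinite T
      obtain ⟨B', hB', ⟨ψ₀, hψ₀, θ₀, hθ₀, h₀⟩, hind⟩ :=
        (S4435.result p M hM N b hb T hst hNT).2.2 B hB ⟨χ, hχ, θ, (hbs θ).2 rfl, hθ⟩
      obtain ⟨hD1, -⟩ :=
        S4436.result p M hM N b hb T hst hNT B' hB' ⟨ψ₀, hψ₀, θ₀, hθ₀, h₀⟩ B hind
      obtain ⟨D, hD⟩ := H592.Defect.exists_defectGroup p hM hB'
      obtain ⟨X, hX1, hX2, Q, hXs, hX3, ⟨eX⟩, hX5⟩ :=
        ih T hTcard (Lib.PSolvable.IsPSolvable_of_injective p hsolv T.subtype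
          T.subtype_injective) B' hB' D hD
      have hrank : Nat.card B ≤ Nat.card B' := by
        refine H448.KBlock.card_le_of_ind T fun χ hχ => ?_
        exact (H591.ReynoldsMain.mem_induced_iff p hM hb hst hNT hB' hψ₀ hθ₀ h₀ hind χ).1 hχ
      obtain ⟨t, ht⟩ := H644.exists_conj_of_isDefectGroup hM hB hP (hD1 D hD)
      have e1 : P ≃* (P.map (MulAut.conj t).toMonoidHom : Subgroup G) :=
        P.equivMapOfInjective _ (MulAut.conj t).injective
      have e2 : D ≃* (D.map T.subtype : Subgroup G) :=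
        D.equivMapOfInjective _ T.subtype_injective
      exact ⟨X, hX1, hX2, Q, hXs, hX3,
        ⟨(e1.trans ((MulEquiv.subgroupCongr ht).trans e2.symm)).trans eX⟩, hrank.trans hX5⟩

/-- The statement of S4818. -/
theorem s4818 (hkgv : KGVStatement.{u}) {G : Type u} [Group G] [Finite G] (p : ℕ) [Fact p.Prime]
    (hsolv : Cfsg.IsPSolvable p G) (M : Ideal Cfsg.AlgInt) (hM : Cfsg.IsPModular p M)
    (B : Set (Cfsg.IrrCharacter G)) (hB : Cfsg.IsPBlock M B) (D : Subgroup G)
    (hD : Cfsg.IsDefectGroup p M B D) : Nat.card B ≤ Nat.card D := by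
  obtain ⟨X, _, _, Q, hX1, hX2, ⟨e⟩, hX3⟩ := reduction p M hM (Nat.card G) G le_rfl hsolv B hB D hD
  rw [Nat.card_congr e.toEquiv]
  exact hX3.trans (s4961 hkgv p hX1 hX2 Q).1

/-- The statement of S4962. -/
theorem s4962 (hkgv : KGVStatement.{u}) {G : Type u} [Group G] [Finite G] (p : ℕ) [Fact p.Prime]
    (hsolv : Cfsg.IsPSolvable p G) (M : Ideal Cfsg.AlgInt) (hM : Cfsg.IsPModular p M)
    (B : Set (Cfsg.IrrCharacter G)) (hB : Cfsg.IsPBlock M B) (D : Subgroup G)
    (hD : Cfsg.IsDefectGroup p M B D) (hna : ∃ a ∈ D, ∃ b ∈ D, a * b ≠ b * a) :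
    Nat.card B < Nat.card D := by
  obtain ⟨X, _, _, Q, hX1, hX2, ⟨e⟩, hX3⟩ := reduction p M hM (Nat.card G) G le_rfl hsolv B hB D hD
  rw [Nat.card_congr e.toEquiv]
  refine hX3.trans_lt ((s4961 hkgv p hX1 hX2 Q).2 ?_)
  obtain ⟨a, ha, b, hb, hab⟩ := hna
  refine ⟨e ⟨a, ha⟩, (e ⟨a, ha⟩).2, e ⟨b, hb⟩, (e ⟨b, hb⟩).2, fun h => hab ?_⟩
  have h1 : e ⟨a, ha⟩ * e ⟨b, hb⟩ = e ⟨b, hb⟩ * e ⟨a, ha⟩ := Subtype.ext h
  rw [← map_mul, ← map_mul] at h1
  exact congrArg Subtype.val (e.injective h1)

end Cfsg.Agent.H591.KGV
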