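import Cfsg.Agent.H540.ClassNum

/-!
# Equality in `k(X) ≤ k(N) k(X/N)`
-/

set_option autoImplicit false

namespace Cfsg.Agent.H591.KGV

open Cfsg.Agent.H540.ClassNum

/-- If `k(X) = k(N) k(X/N)` then `C_{X/N}(xN) = C_X(x) N / N` for all `x`. -/
theorem centralizer_le_map_of_eq {X : Type*} [Group X] [Finite X] (N : Subgroup X) [N.Normal]
    (heq : Nat.card (ConjClasses X) = Nat.card (ConjClasses N) * Nat.card (ConjClasses (X ⧸ N)))
    (x : X) :
    Subgroup.centralizer {(QuotientGroup.mk x : X ⧸ N)} ≤
      (Subgroup.centralizer {x}).map (QuotientGroup.mk' N) := by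
  classical
  have := Fintype.ofFinite X
  have := Fintype.ofFinite N
  have := Fintype.ofFinite (X ⧸ N)
  have hX : 0 < Nat.card X := Nat.card_pos
  -- first equality of the centralizer orders
  have key : cent x (⊤ : Subgroup X) =
      cent x N * cent (QuotientGroup.mk x : X ⧸ N) (⊤ : Subgroup (X ⧸ N)) := by
    by_contra hne
    have hlt := lt_of_le_of_ne (cent_top_le_quotient N x) hne
    have h1 : Nat.card (ConjClasses X) * Nat.card X <
        Nat.card (ConjClasses N) * Nat.card (ConjClasses (X ⧸ N)) * Nat.card X := by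
      rw [card_conjClasses_mul_card]
      calc ∑ x : X, cent x (⊤ : Subgroup X) <
            ∑ x : X, cent x N * cent (QuotientGroup.mk x : X ⧸ N) (⊤ : Subgroup (X ⧸ N)) :=
            Finset.sum_lt_sum (fun x _ => cent_top_le_quotient N x) ⟨x, Finset.mem_univ _, hlt⟩
        _ = ∑ z : X ⧸ N, ∑ x : {x : X // (QuotientGroup.mk x : X ⧸ N) = z},
              cent (x : X) N * cent z (⊤ : Subgroup (X ⧸ N)) := by
            rw [← Fintype.sum_fiberwise (fun x : X => (QuotientGroup.mk x : X ⧸ N))]
            refine Finset.sum_congr rfl fun z _ => Finset.sum_congr rfl fun x _ => ?_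
            rw [x.2]
        _ ≤ ∑ z : X ⧸ N, (∑ n : N, cent (n : X) N) * cent z (⊤ : Subgroup (X ⧸ N)) := by
            refine Finset.sum_le_sum fun z _ => ?_
            rw [← Finset.sum_mul]
            exact Nat.mul_le_mul_right _ (sum_cent_coset_le N z)
        _ = Nat.card (ConjClasses N) * Nat.card (ConjClasses (X ⧸ N)) * Nat.card X := by
            rw [← Finset.mul_sum, ← card_conjClasses_subgroup_mul_card, ← card_conjClasses_mul_card,
              Subgroup.card_eq_card_quotient_mul_card_subgroup N]
            ring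
    rw [heq] at h1
    exact lt_irrefl _ h1
  -- the image of the centralizer
  rw [cent_top_eq x N] at key
  have h1 : N.relIndex (Subgroup.centralizer {x}) =
      Nat.card ((Subgroup.centralizer {x}).map (QuotientGroup.mk' N)) := by
    have := Subgroup.relIndex_ker (K := Subgroup.centralizer ({x} : Set X)) (QuotientGroup.mk' N)
    rw [QuotientGroup.ker_mk'] at this
    rw [this]
  rw [h1] at key
  have h2 := Nat.eq_of_mul_eq_mul_left (cent_pos x N) key
  rw [cent_top] at h2
  have hle : (Subgroup.centralizer {x}).map (QuotientGroup.mk' N) ≤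
      Subgroup.centralizer {(QuotientGroup.mk x : X ⧸ N)} := by
    rintro _ ⟨c, hc, rfl⟩
    rw [SetLike.mem_coe, Subgroup.mem_centralizer_singleton_iff] at hc
    rw [Subgroup.mem_centralizer_singleton_iff]
    have := congrArg (QuotientGroup.mk' N) hc
    rw [map_mul, map_mul] at this
    exact this
  exact (Subgroup.eq_of_le_of_card_ge hle h2.ge).ge

end Cfsg.Agent.H591.KGV
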